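import Cfsg.Agent.H768.RowSelf
import Cfsg.Agent.QTNorm.SporHS
import Cfsg.Agent.QTNorm.SporRu

/-!
# Rows of S5161: HS and Ru have self-normalising Sylow 2-subgroups (helper810)
-/

set_option autoImplicit false

namespace Cfsg.Agent.H810.RowHSRu

open Cfsg Subgroup Cfsg.Agent.QTNorm Cfsg.Agent.H747

universe u

theorem row_hs {K : Type u} [Group K] [Finite K] (h : Spor.IsoHS K) : RowTwo K :=
  H768.RowSelf.row_of_selfN (HSRow.selfN_hs h)

theorem row_ru {K : Type u} [Group K] [Finite K] (h : Spor.IsoRu K) : RowTwo K :=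
  H768.RowSelf.row_of_selfN (RuRow.selfN_ru h)

end Cfsg.Agent.H810.RowHSRu
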