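import Mathlib
import Cfsg.Agent.H810.Basic
import Cfsg.Agent.H845.T6Iso
import Cfsg.Agent.H831.Short

set_option autoImplicit false

/-!
# Type `T7`: the centralizer of a transposition is quasisimple

For a Fischer group of type `T7` and `x ∈ D`: `x` is the product of six members of `D_x`,
`⟨D_x⟩ = C(x)` is perfect with centre `⟨x⟩`, its quotient is simple, and `G` is simple.
-/

namespace Cfsg.Agent.H810.Seven

open Cfsg Cfsg.Agent.SporadicStructure.FischerSpace Cfsg.Agent.ThreeTransPolar.Basic
open Cfsg.Agent.ThreeTransPolar.Lines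
open Cfsg.Agent.Fischer160.Inherit hiding Dx
open Cfsg.Agent.Fischer480.Defs hiding FGroup
open Cfsg.Agent.TSp.Basic hiding FGroup
open Cfsg.Agent.TSp.Perp Cfsg.Agent.TSp.LTrans Cfsg.Agent.TSp.CL Cfsg.Agent.TSp.Orders
open Cfsg.Agent.TSp.OrdersT
open Cfsg.Agent.S0480U.UModel Cfsg.Agent.H845.T6Hyp Cfsg.Agent.H831.Short

universe u

variable {G : Type u} [Group G] {D : Set G}

/-- five distinct commuting members of `D_x` whose product is `x`, type `T6` -/
theorem exists_line5 [Finite G] (F : FGroup D) (h : N6 D) {x : G} (hx : x ∈ D) :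
    ∃ b : Fin 5 → G, Function.Injective b ∧ (∀ i, b i ∈ Loc D x) ∧ (∀ i j, Commute (b i) (b j)) ∧
      b 0 * b 1 * b 2 * b 3 * b 4 = x := by
  obtain ⟨u0, hu0, hu0x, hcu0⟩ := (rk_of_FGroup F).exPerp x hx
  have hU := h.loc x hx
  have hu0' : u0 ∈ Loc D x := ⟨hu0, hu0x, hcu0⟩
  obtain ⟨w, hw, hu0w⟩ := Cfsg.Agent.S0480U.UComb.exists_not_commute' hU hu0'
  obtain ⟨u, hu, v, hv, huv, hc⟩ := exists_pair (isU_com (n := 4) hU hu0' hw hu0w)
  have hu' : u ∈ Loc D x := hu.1
  have hv' : v ∈ Loc D x := hv.1
  have hcard := Cfsg.Agent.S0480U.UComb.card_line' hU hu' hv' huv hc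
  have hfin : Finite (Line (Loc D x) u v) := Set.toFinite _
  have hcard' : Nat.card (Line (Loc D x) u v) = 5 := hcard
  let e : Fin 5 ≃ Line (Loc D x) u v := (Finite.equivFinOfCardEq hcard').symm
  have hinj : Function.Injective (fun i => (e i : G)) := fun i j hij =>
    e.injective (Subtype.ext hij)
  have hL : ∀ i, (e i : G) ∈ Line (Loc D x) u v := fun i => (e i).2
  have hcomm : ∀ i j, Commute (e i : G) (e j) := fun i j =>
    Line_commute hu' hv' hc (hL i) (hL j)
  refine ⟨fun i => (e i : G), hinj, fun i => Line_mem (hL i), hcomm, ?_⟩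
  refine line_prod F h hx (fun i => (e i : G)) (fun i => Line_mem (hL i)) hinj hcomm ?_
  intro i
  rw [Cfsg.Agent.S0480U.UComb.line_eq' hU hu' hv' hc (hL 0) (hL 1)
    (fun h01 => by have := hinj h01; exact absurd this (by decide))]
  exact hL i

section Seven

variable [Finite G] (F : FGroup D) (h : N7 D) {x : G} (hx : x ∈ D)
include F h hx

/-- `x` is the product of six members of `D_x` -/
theorem exists_six : ∃ l : List G, l.length = 6 ∧ (∀ b ∈ l, b ∈ Loc D x) ∧ l.prod = x := by
  obtain ⟨y, hy, hyx, hc⟩ := (rk_of_FGroup F).exPerp x hx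
  have ht := thin_N7 h
  have hth := thin_of_thinLines ht hy
  have FE := inherit_N7 F h hy
  have NE : N6 (Eb D y) := n6_transport (cIso_Eb F.fd ht hy) (h.loc y hy)
  have hxy : x ∈ Loc D y := ⟨hx, hyx.symm, hc.symm⟩
  have he : β D y x ∈ Eb D y := β_mem hxy
  obtain ⟨b, hinj, hb, hcomm, hprod⟩ := exists_line5 FE NE he
  choose a ha hab using fun i => β_surj (hb i).1
  have hinj' : ∀ i j, a i = a j → i = j := by
    intro i j hij
    apply hinj
    rw [← hab i, ← hab j, hij]
  have hax : ∀ i, a i ≠ x := by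
    intro i hi
    apply (hb i).2.1
    rw [← hab i, hi]
  have hcx : ∀ i, Commute x (a i) := by
    intro i
    have h1 := (hb i).2.2
    rw [← hab i] at h1
    exact (β_commute F.fd hth hxy (ha i)).1 h1
  have hcc : ∀ i j, Commute (a i) (a j) := by
    intro i j
    have h1 := hcomm i j
    rw [← hab i, ← hab j] at h1
    exact (β_commute F.fd hth (ha i) (ha j)).1 h1
  have haH : ∀ i, a i ∈ HH D y := fun i => mem_HH_of (ha i)
  have hxH : x ∈ HH D y := mem_HH_of hxy
  have hβ : β D y (a 0 * a 1 * a 2 * a 3 * a 4) = β D y x := by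
    rw [β_mul (mul_mem (mul_mem (mul_mem (haH 0) (haH 1)) (haH 2)) (haH 3)) (haH 4),
      β_mul (mul_mem (mul_mem (haH 0) (haH 1)) (haH 2)) (haH 3),
      β_mul (mul_mem (haH 0) (haH 1)) (haH 2), β_mul (haH 0) (haH 1), hab, hab, hab, hab, hab]
    exact hprod
  set p := a 0 * a 1 * a 2 * a 3 * a 4 with hp
  have hpH : p ∈ HH D y :=
    mul_mem (mul_mem (mul_mem (mul_mem (haH 0) (haH 1)) (haH 2)) (haH 3)) (haH 4)
  have hcen : (⟨x * p, mul_mem hxH hpH⟩ : HH D y) ∈ Subgroup.center (HH D y) := by
    rw [← QuotientGroup.eq_one_iff, ← β_of (mul_mem hxH hpH), β_mul hxH hpH, hβ, ← β_mul hxH hxH,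
      F.fd.sq x hx, β_of (one_mem _)]
    rfl
  have hθ := theta_N7 F.fd subset_rfl (tset_of_fdata F.fd) h
  have hT : IsThreeTranspositionSet D := (isThree_of_fdata F.fd).1
  rcases (mem_center_HH F hθ hy).1 hcen with h1 | h1
  · -- a relation with six members
    exfalso
    have h7 : IsT7 D := ⟨h.card, fun x hx => ⟨(h.loc x hx).card, (h.loc x hx).loc,
      fun a ha b hb hab => (h.loc x hx).com a ha b hb hab⟩, fun a ha b hb hab =>
      h.com a ha b hb hab⟩
    have h2 := noRel_seven hT h7 [x, a 0, a 1, a 2, a 3, a 4] (by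
        have n : ∀ i j, i ≠ j → a i ≠ a j := fun i j hij hh => hij (hinj' i j hh)
        simp only [List.nodup_cons, List.mem_cons, List.not_mem_nil, or_false, not_or,
          List.nodup_nil, and_true, not_false_eq_true]
        exact ⟨⟨(hax 0).symm, (hax 1).symm, (hax 2).symm, (hax 3).symm, (hax 4).symm⟩,
          ⟨n _ _ (by decide), n _ _ (by decide), n _ _ (by decide), n _ _ (by decide)⟩,
          ⟨n _ _ (by decide), n _ _ (by decide), n _ _ (by decide)⟩,
          ⟨n _ _ (by decide), n _ _ (by decide)⟩, n _ _ (by decide)⟩) (by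
        intro c hc'
        simp only [List.mem_cons, List.not_mem_nil, or_false] at hc'
        rcases hc' with rfl | rfl | rfl | rfl | rfl | rfl
        · exact hx
        all_goals exact (ha _).1) (by
        intro c hc' d hd'
        simp only [List.mem_cons, List.not_mem_nil, or_false] at hc' hd'
        rcases hc' with rfl | rfl | rfl | rfl | rfl | rfl <;>
          rcases hd' with rfl | rfl | rfl | rfl | rfl | rfl <;>
          first
            | exact Commute.refl _
            | exact hcx _
            | exact (hcx _).symm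
            | exact hcc _ _) (by
        have h3 : x * p = 1 := h1
        simp only [List.prod_cons, List.prod_nil, mul_one]
        rw [← h3, hp]
        simp only [mul_assoc]) (by simp)
    exact absurd h2 (by simp)
  · have h3 : x * p = y := h1
    refine ⟨[y, a 0, a 1, a 2, a 3, a 4], rfl, ?_, ?_⟩
    · intro c hc'
      simp only [List.mem_cons, List.not_mem_nil, or_false] at hc'
      rcases hc' with rfl | rfl | rfl | rfl | rfl | rfl
      · exact ⟨hy, hyx, hc⟩
      all_goals exact ⟨(ha _).1, hax _, hcx _⟩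
    · simp only [List.prod_cons, List.prod_nil, mul_one]
      have h4 : y * p = x := by
        have hpx : Commute x p :=
          ((((hcx 0).mul_right (hcx 1)).mul_right (hcx 2)).mul_right (hcx 3)).mul_right (hcx 4)
        have hpp : p * p = 1 := by
          have hTs := sq_prod hT [a 0, a 1, a 2, a 3, a 4] (by
            intro c hc'
            simp only [List.mem_cons, List.not_mem_nil, or_false] at hc'
            rcases hc' with rfl | rfl | rfl | rfl | rfl
            all_goals exact (ha _).1) (by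
            intro c hc' d hd'
            simp only [List.mem_cons, List.not_mem_nil, or_false] at hc' hd'
            rcases hc' with rfl | rfl | rfl | rfl | rfl <;>
              rcases hd' with rfl | rfl | rfl | rfl | rfl <;> exact hcc _ _)
          simp only [List.prod_cons, List.prod_nil, mul_one, ← mul_assoc] at hTs
          rw [hp]
          simp only [← mul_assoc]
          exact hTs
        rw [← h3, mul_assoc, hpp, mul_one]
      rw [← h4, hp]
      simp only [mul_assoc]

theorem mem_HH_self : x ∈ HH D x := by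
  obtain ⟨l, -, hl, hp⟩ := exists_six F h hx
  have h1 : l.prod ∈ HH D x := Subgroup.list_prod_mem _ fun b hb => mem_HH_of (hl b hb)
  rwa [hp] at h1

/-- `⟨D_x⟩ = C(x)` -/
theorem HH_eq : HH D x = Subgroup.centralizer ({x} : Set G) := by
  rw [← LL_eq_centralizer (cl_seven F h) hx]
  refine le_antisymm (HH_le_LL x) ?_
  rw [LL, Subgroup.closure_le]
  rintro d ⟨hd, hdx⟩
  by_cases hd' : d = x
  · rw [hd']; exact mem_HH_self F h hx
  · exact mem_HH_of ⟨hd, hd', hdx.symm⟩

theorem mem_center_iff {z : HH D x} : z ∈ Subgroup.center (HH D x) ↔ (z : G) = 1 ∨ (z : G) = x :=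
  mem_center_HH F (theta_N7 F.fd subset_rfl (tset_of_fdata F.fd) h) hx

theorem iso_KK : Nonempty (Cfsg.Spor.Fi22 ≃* KK D x) := by
  have ht := thin_N7 h
  have FE := inherit_N7 F h hx
  have h7 : IsT6 (Eb D x) := by
    have NE : N6 (Eb D x) := n6_transport (cIso_Eb F.fd ht hx) (h.loc x hx)
    exact ⟨NE.card, NE.loc, fun a ha b hb hab => NE.com a ha b hb hab⟩
  obtain ⟨e, -⟩ := Cfsg.Agent.H845.T6Iso.exists_iso
    (D := Eb D x) ⟨isThree_of_fdata FE.fd, FE.sol, FE.perf⟩ h7
  exact ⟨e⟩

theorem simple_KK : IsSimpleGroup (KK D x) := by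
  obtain ⟨e⟩ := iso_KK F h hx
  have hs : IsSimpleGroup Cfsg.Spor.Fi22 := Cfsg.Agent.S1696.result.1
  exact e.symm.isSimpleGroup

theorem perfect_KK : commutator (KK D x) = ⊤ := by
  have hs := simple_KK F h hx
  have FE := inherit_N7 F h hx
  rcases hs.eq_bot_or_eq_top_of_normal (commutator (KK D x)) inferInstance with h1 | h1
  · exfalso
    have h2 : Group.IsSolvable (KK D x) := ⟨1, by rw [derivedSeries_one]; exact h1⟩
    have h3 := FE.sol ⊤ inferInstance (by infer_instance)
    have := hs.toNontrivial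
    exact top_ne_bot h3
  · exact h1

theorem perfect_HH : commutator (HH D x) = ⊤ := by
  obtain ⟨l, hlen, hl, hp⟩ := exists_six F h hx
  exact Basic.perfect_HH F hx (fun z hz => (mem_center_iff F h hx).1 hz) l hl
    (by rw [hlen]; decide) hp (perfect_KK F h hx)

theorem quasisimple_HH : Cfsg.IsQuasisimple (HH D x) :=
  ⟨Group.isPerfect_def.2 (perfect_HH F h hx), simple_KK F h hx⟩

theorem center_HH : Subgroup.center (HH D x) = (Subgroup.zpowers x).subgroupOf (HH D x) := by
  ext z
  rw [mem_center_iff F h hx, Subgroup.mem_subgroupOf]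
  constructor
  · rintro (h1 | h1)
    · rw [h1]; exact one_mem _
    · rw [h1]; exact Subgroup.mem_zpowers x
  · rintro ⟨k, hk⟩
    have hk' : x ^ k = (z : G) := hk
    rcases Int.even_or_odd' k with ⟨m, rfl | rfl⟩
    · left
      rw [← hk', zpow_mul, zpow_ofNat, pow_two, F.fd.sq x hx, one_zpow]
    · right
      rw [← hk', zpow_add, zpow_mul, zpow_ofNat, pow_two, F.fd.sq x hx, one_zpow, one_mul, zpow_one]

omit h hx x in
/-- a Fischer group of type `T7` is perfect -/
theorem perfect_G (h : N7 D) : commutator G = ⊤ := by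
  obtain ⟨x, hx⟩ := F.fd.nonempty
  have h1 : x ∈ commutator G := by
    have h2 : (commutator (HH D x)).map (HH D x).subtype ≤ commutator G := by
      rw [commutator_def, Subgroup.map_commutator, commutator_def]
      exact Subgroup.commutator_mono le_top le_top
    apply h2
    rw [perfect_HH F h hx]
    exact ⟨⟨x, mem_HH_self F h hx⟩, trivial, rfl⟩
  rw [eq_top_iff, ← F.fd.gen, Subgroup.closure_le]
  intro d hd
  obtain ⟨g, rfl⟩ := F.fd.single x hx d hd
  exact (inferInstance : (commutator G).Normal).conj_mem x h1 g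

omit h hx x in
/-- **a Fischer group of type `T7` is simple** -/
theorem simple_G (h : N7 D) : IsSimpleGroup G :=
  Basic.isSimple_of_perfect F (perfect_G F h)

end Seven

end Cfsg.Agent.H810.Seven
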